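/-
Basic objects for the defining characteristic fusion system of `PSp_{2m}(F)`:
transvections and Eichler elements, the unitriangular subgroup.
-/
import Mathlib
import Cfsg.Prelude.Def_FusionSystem
import Cfsg.Agent.Lib.Classical.Symp.Basic
import Cfsg.Agent.Lib.Classical.Symp.SimpleMatrix
import Cfsg.Agent.Lib.Fusion.SimpleCriterion3
import Cfsg.Agent.Lib.Basic.SylowUtil
import Cfsg.Agent.Lib.Fusion.PSLnDef

set_option autoImplicit false
set_option linter.unusedSectionVars false
set_option linter.unusedSimpArgs false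
set_option linter.unusedVariables false

namespace Cfsg.Agent.Lib.Fusion.PSp.Basic

open Matrix Cfsg Cfsg.Agent.Lib.Classical.Symp.Basic

variable {m : ℕ} {F : Type*} [Field F]

/-- The form. -/
local notation "B" => sympForm m F

/-- Action on vectors. -/
def act (g : symplecticGroup (Fin m) F) (x : Fin m ⊕ Fin m → F) : Fin m ⊕ Fin m → F := g.1 *ᵥ x

theorem act_def (g : symplecticGroup (Fin m) F) (x : Fin m ⊕ Fin m → F) : act g x = g.1 *ᵥ x := rfl

theorem act_mul (g h : symplecticGroup (Fin m) F) (x : Fin m ⊕ Fin m → F) :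
    act (g * h) x = act g (act h x) := by
  simp [act, mulVec_mulVec]

theorem act_one (x : Fin m ⊕ Fin m → F) : act (1 : symplecticGroup (Fin m) F) x = x := by
  simp [act]

theorem act_add (g : symplecticGroup (Fin m) F) (x y : Fin m ⊕ Fin m → F) :
    act g (x + y) = act g x + act g y := by
  simp [act, mulVec_add]

theorem act_smul (g : symplecticGroup (Fin m) F) (c : F) (x : Fin m ⊕ Fin m → F) :
    act g (c • x) = c • act g x := by
  simp [act, mulVec_smul]

theorem act_zero (g : symplecticGroup (Fin m) F) : act g (0 : Fin m ⊕ Fin m → F) = 0 := by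
  simp [act]

theorem act_inv_act (g : symplecticGroup (Fin m) F) (x : Fin m ⊕ Fin m → F) :
    act g⁻¹ (act g x) = x := by
  rw [← act_mul, inv_mul_cancel, act_one]

theorem act_act_inv (g : symplecticGroup (Fin m) F) (x : Fin m ⊕ Fin m → F) :
    act g (act g⁻¹ x) = x := by
  rw [← act_mul, mul_inv_cancel, act_one]

theorem B_act (g : symplecticGroup (Fin m) F) (x y : Fin m ⊕ Fin m → F) :
    B (act g x) (act g y) = B x y :=
  mem_symplecticGroup_iff_forall.1 g.2 x y

theorem sp_ext {g h : symplecticGroup (Fin m) F} (H : ∀ x, act g x = act h x) : g = h := by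
  apply Subtype.ext
  apply Matrix.toLin'.injective
  refine LinearMap.ext fun x => ?_
  simpa [act] using H x

/-! ### The form -/

theorem B_add_left (x y z : Fin m ⊕ Fin m → F) : B (x + y) z = B x z + B y z :=
  (sympBilin m F).map_add₂ x y z

theorem B_add_right (x y z : Fin m ⊕ Fin m → F) : B x (y + z) = B x y + B x z :=
  ((sympBilin m F) x).map_add y z

theorem B_smul_left (c : F) (x y : Fin m ⊕ Fin m → F) : B (c • x) y = c * B x y :=
  (sympBilin m F).map_smul₂ c x y

theorem B_smul_right (c : F) (x y : Fin m ⊕ Fin m → F) : B x (c • y) = c * B x y :=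
  ((sympBilin m F) x).map_smul c y

theorem B_zero_left (y : Fin m ⊕ Fin m → F) : B 0 y = 0 := by
  simpa using B_smul_left (0 : F) 0 y

theorem B_zero_right (y : Fin m ⊕ Fin m → F) : B y 0 = 0 := by
  simpa using B_smul_right (0 : F) y 0

theorem B_self (x : Fin m ⊕ Fin m → F) : B x x = 0 := sympForm_self x

theorem B_swap (x y : Fin m ⊕ Fin m → F) : B x y = - B y x := by
  have := B_self (x + y)
  rw [B_add_left, B_add_right, B_add_right, B_self, B_self, zero_add, add_zero] at this
  exact eq_neg_of_add_eq_zero_left this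

theorem B_neg_left (x y : Fin m ⊕ Fin m → F) : B (-x) y = - B x y := by
  simpa using B_smul_left (-1 : F) x y

theorem B_neg_right (x y : Fin m ⊕ Fin m → F) : B x (-y) = - B x y := by
  simpa using B_smul_right (-1 : F) x y

/-- Basis vector `a_i`. -/
abbrev av (i : Fin m) : Fin m ⊕ Fin m → F := Pi.single (Sum.inl i) 1

/-- Basis vector `b_i`. -/
abbrev bv (i : Fin m) : Fin m ⊕ Fin m → F := Pi.single (Sum.inr i) 1

theorem B_av (x : Fin m ⊕ Fin m → F) (i : Fin m) : B x (av i) = x (Sum.inr i) :=
  sympForm_single_inl x i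

theorem B_bv (x : Fin m ⊕ Fin m → F) (i : Fin m) : B x (bv i) = - x (Sum.inl i) :=
  sympForm_single_inr x i

theorem B_av_left (x : Fin m ⊕ Fin m → F) (i : Fin m) : B (av i) x = - x (Sum.inr i) := by
  rw [B_swap, B_av]

theorem B_bv_left (x : Fin m ⊕ Fin m → F) (i : Fin m) : B (bv i) x = x (Sum.inl i) := by
  rw [B_swap, B_bv, neg_neg]

/-! ### Transvections -/

/-- The symplectic transvection `x ↦ x + c B(x, w) w`. -/
def tr (w : Fin m ⊕ Fin m → F) (c : F) : symplecticGroup (Fin m) F :=
  ⟨sympTransvection m w c, sympTransvection_mem w c⟩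

theorem act_tr (w : Fin m ⊕ Fin m → F) (c : F) (x : Fin m ⊕ Fin m → F) :
    act (tr w c) x = x + (c * B x w) • w :=
  sympTransvection_mulVec w c x

/-! ### Eichler elements -/

/-- The Eichler element `x ↦ x + B(x,w) v + B(x,v) w + c B(x,w) w`, when `B(v,w) = 0`. -/
def Et (w v : Fin m ⊕ Fin m → F) (c : F) : symplecticGroup (Fin m) F :=
  tr (w + v) 1 * (tr v (-1) * tr w (c - 1))

theorem act_Et {w v : Fin m ⊕ Fin m → F} (h : B v w = 0) (c : F) (x : Fin m ⊕ Fin m → F) :
    act (Et w v c) x = x + B x w • v + B x v • w + (c * B x w) • w := by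
  have h' : B w v = 0 := by rw [B_swap, h, neg_zero]
  simp only [Et, act_mul, act_tr, B_add_left, B_add_right, B_smul_left, B_self, B_neg_left, h, h',
    add_zero, zero_add, mul_zero, one_mul, neg_mul, mul_neg]
  ext i
  simp only [Pi.add_apply, Pi.smul_apply, smul_eq_mul, Pi.neg_apply]
  ring

theorem Et_ext {w v w' v' : Fin m ⊕ Fin m → F} {c c' : F} (h : B v w = 0) (h' : B v' w' = 0)
    (H : ∀ x : Fin m ⊕ Fin m → F, B x w • v + B x v • w + (c * B x w) • w =
      B x w' • v' + B x v' • w' + (c' * B x w') • w') : Et w v c = Et w' v' c' := by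
  apply sp_ext
  intro x
  rw [act_Et h, act_Et h']
  have := H x
  simp only [add_assoc] at this ⊢
  rw [this]

theorem Et_mul {w v v' : Fin m ⊕ Fin m → F} (h : B v w = 0) (h' : B v' w = 0) (c c' : F) :
    Et w v c * Et w v' c' = Et w (v + v') (c + c' + B v' v) := by
  have h'' : B (v + v') w = 0 := by rw [B_add_left, h, h', add_zero]
  have hw : B w v = 0 := by rw [B_swap, h, neg_zero]
  have hw' : B w v' = 0 := by rw [B_swap, h', neg_zero]
  apply sp_ext
  intro x
  rw [act_mul, act_Et h, act_Et h', act_Et h'']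
  simp only [B_add_left, B_add_right, B_smul_left, B_smul_right, B_self, hw, hw', h', h,
    mul_zero, add_zero]
  ext i
  simp only [Pi.add_apply, Pi.smul_apply, smul_eq_mul]
  ring

theorem Et_zero_zero (w : Fin m ⊕ Fin m → F) : Et w 0 (0 : F) = 1 := by
  apply sp_ext
  intro x
  rw [act_Et (B_zero_left w), act_one, B_zero_right]
  simp

theorem Et_inv {w v : Fin m ⊕ Fin m → F} (h : B v w = 0) (c : F) :
    (Et w v c)⁻¹ = Et w (-v) (-c) := by
  apply inv_eq_of_mul_eq_one_right
  have h' : B (-v) w = 0 := by rw [B_neg_left, h, neg_zero]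
  rw [Et_mul h h', add_neg_cancel, add_neg_cancel, B_neg_left, B_self, neg_zero, add_zero,
    Et_zero_zero]

theorem tr_eq_Et (w : Fin m ⊕ Fin m → F) (c : F) : tr w c = Et w 0 c := by
  apply sp_ext
  intro x
  rw [act_Et (B_zero_left w), act_tr, B_zero_right]
  simp

theorem Et_conj {w v : Fin m ⊕ Fin m → F} (h : B v w = 0) (c : F) (g : symplecticGroup (Fin m) F) :
    g * Et w v c * g⁻¹ = Et (act g w) (act g v) c := by
  have h' : B (act g v) (act g w) = 0 := by rw [B_act, h]
  apply sp_ext
  intro x
  have e : ∀ y, B (act g⁻¹ x) y = B x (act g y) := by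
    intro y
    rw [← B_act g, act_act_inv]
  rw [act_mul, act_mul, act_Et h, act_add, act_add, act_add, act_act_inv, act_smul, act_smul,
    act_smul, act_Et h', e, e]

theorem Et_conj_of_fix {w v : Fin m ⊕ Fin m → F} (h : B v w = 0) (c : F)
    {g : symplecticGroup (Fin m) F} (hg : act g w = w) :
    g * Et w v c * g⁻¹ = Et w (act g v) c := by
  rw [Et_conj h, hg]

theorem Et_smul {w v : Fin m ⊕ Fin m → F} (h : B v w = 0) (μ c : F) :
    Et (μ • w) v c = Et w (μ • v) (μ ^ 2 * c) := by
  apply Et_ext (by rw [B_smul_right, h, mul_zero]) (by rw [B_smul_left, h, mul_zero])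
  intro x
  simp only [B_smul_right]
  ext i
  simp only [Pi.add_apply, Pi.smul_apply, smul_eq_mul]
  ring

theorem tr_smul (μ c : F) (w : Fin m ⊕ Fin m → F) : tr (μ • w) c = tr w (μ ^ 2 * c) := by
  apply sp_ext
  intro x
  rw [act_tr, act_tr, B_smul_right]
  ext i
  simp only [Pi.add_apply, Pi.smul_apply, smul_eq_mul]
  ring

theorem tr_add (w : Fin m ⊕ Fin m → F) (c d : F) : tr w c * tr w d = tr w (c + d) := by
  apply sp_ext
  intro x
  rw [act_mul, act_tr, act_tr, act_tr, B_add_left, B_smul_left, B_self]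
  ext i
  simp only [Pi.add_apply, Pi.smul_apply, smul_eq_mul]
  ring

theorem tr_zero (w : Fin m ⊕ Fin m → F) : tr w (0 : F) = 1 := by
  apply sp_ext
  intro x
  rw [act_tr, act_one]
  simp

theorem tr_inv (w : Fin m ⊕ Fin m → F) (c : F) : (tr w c)⁻¹ = tr w (-c) := by
  apply inv_eq_of_mul_eq_one_right
  rw [tr_add, add_neg_cancel, tr_zero]

theorem tr_conj (w : Fin m ⊕ Fin m → F) (c : F) (g : symplecticGroup (Fin m) F) :
    g * tr w c * g⁻¹ = tr (act g w) c := by
  rw [tr_eq_Et, tr_eq_Et, Et_conj (B_zero_left w), act_zero]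

/-- Powers of Eichler elements. -/
theorem Et_pow {w v : Fin m ⊕ Fin m → F} (h : B v w = 0) (c : F) (n : ℕ) :
    Et w v c ^ n = Et w ((n : F) • v) ((n : F) * c) := by
  induction n with
  | zero => simp [Et_zero_zero]
  | succ n ih =>
    rw [pow_succ, ih, Et_mul (by rw [B_smul_left, h, mul_zero]) h, B_smul_right, B_self, mul_zero,
      add_zero]
    congr 1
    · push_cast
      rw [add_smul, one_smul]
    · push_cast
      ring

/-! ### The rank function and the unitriangular subgroup -/

/-- The order of the basis `a_0, ..., a_{m-1}, b_{m-1}, ..., b_0`. -/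
def rk : Fin m ⊕ Fin m → ℕ
  | Sum.inl i => i
  | Sum.inr i => 2 * m - 1 - i

theorem rk_inl (i : Fin m) : rk (Sum.inl i) = i := rfl

theorem rk_inr (i : Fin m) : rk (Sum.inr i) = 2 * m - 1 - i := rfl

theorem rk_lt (α : Fin m ⊕ Fin m) : rk α < 2 * m := by
  rcases α with i | i
  · have := i.2
    simp only [rk_inl]
    omega
  · have := i.2
    simp only [rk_inr]
    omega

theorem rk_inj {α β : Fin m ⊕ Fin m} (h : rk α = rk β) : α = β := by
  rcases α with i | i <;> rcases β with j | j
  · simp only [rk_inl] at h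
    rw [Fin.ext h]
  · have := i.2
    have := j.2
    simp only [rk_inl, rk_inr] at h
    omega
  · have := i.2
    have := j.2
    simp only [rk_inl, rk_inr] at h
    omega
  · have := i.2
    have := j.2
    simp only [rk_inr] at h
    rw [Fin.ext (by omega : (i : ℕ) = j)]

/-- Upper unitriangular for the order of `rk`. -/
def IsU (g : symplecticGroup (Fin m) F) : Prop :=
  (∀ α β, rk β < rk α → g.1 α β = 0) ∧ ∀ α, g.1 α α = 1

theorem IsU.mul {g h : symplecticGroup (Fin m) F} (hg : IsU g) (hh : IsU h) : IsU (g * h) := by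
  constructor
  · intro α β hlt
    rw [Submonoid.coe_mul, Matrix.mul_apply]
    refine Finset.sum_eq_zero fun k _ => ?_
    by_cases hk : rk k < rk α
    · rw [hg.1 α k hk, zero_mul]
    · rw [hh.1 k β (by omega), mul_zero]
  · intro α
    rw [Submonoid.coe_mul, Matrix.mul_apply, Finset.sum_eq_single α]
    · rw [hg.2, hh.2, one_mul]
    · intro k _ hk
      rcases lt_or_gt_of_ne (fun e => hk (rk_inj e)) with h | h
      · rw [hg.1 α k h, zero_mul]
      · rw [hh.1 k α h, mul_zero]
    · simp

theorem isU_one : IsU (1 : symplecticGroup (Fin m) F) := by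
  constructor
  · intro α β h
    have : α ≠ β := fun e => by subst e; exact lt_irrefl _ h
    simp [Matrix.one_apply, this]
  · intro α
    simp

variable [Finite F]

instance : Finite (symplecticGroup (Fin m) F) := by
  classical
  exact Subtype.finite

/-- The upper unitriangular subgroup of `Sp`. -/
def USp (m : ℕ) (F : Type*) [Field F] [Finite F] : Subgroup (symplecticGroup (Fin m) F) where
  carrier := {g | IsU g}
  mul_mem' := IsU.mul
  one_mem' := isU_one
  inv_mem' := by
    intro s hs
    exact Cfsg.Agent.Lib.Fusion.PSLnDef.inv_mem_of_finite (M := { carrier := {g : symplecticGroup (Fin m) F | IsU g}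
                                                                  mul_mem' := IsU.mul
                                                                  one_mem' := isU_one }) hs

end Cfsg.Agent.Lib.Fusion.PSp.Basic
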